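import Mathlib

/-!
A weak Sylvester theorem: `C(m, k)` has a prime divisor above `min k (√m)`.
-/

set_option autoImplicit false

namespace CfsgLib.AltDerange

open Finset

theorem card_primes_le : ∀ s : ℕ, 8 ≤ s → 2 * ((range (s + 1)).filter Nat.Prime).card ≤ s := by
  intro s
  induction s using Nat.strong_induction_on with
  | _ s ih =>
    intro hs
    rcases Nat.lt_or_ge s 10 with h | h
    · interval_cases s <;> decide +kernel
    · obtain ⟨t, rfl⟩ : ∃ t, s = t + 2 := ⟨s - 2, by omega⟩
      have := ih t (by omega) (by omega)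
      rw [show t + 2 + 1 = t + 1 + 1 + 1 by omega, range_add_one, range_add_one, filter_insert,
        filter_insert]
      by_cases h1 : Nat.Prime (t + 1)
      · have h2 : ¬ Nat.Prime (t + 2) := fun h2 => by
          have e1 := h1.eq_two_or_odd
          have e2 := h2.eq_two_or_odd
          omega
        rw [if_neg (by simpa using h2), if_pos h1, card_insert_of_notMem (by simp)]
        omega
      · rw [if_neg h1]
        split_ifs
        · rw [card_insert_of_notMem (by simp)]; omega
        · omega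

/-- If all prime divisors of `C(m, k)` are at most `s`, then `C(m, k) ≤ m ^ π(s)`. -/
theorem choose_le_pow {m k s : ℕ} (hk : k ≤ m) (hm : 0 < m)
    (h : ∀ p : ℕ, p.Prime → p ∣ m.choose k → p ≤ s) :
    m.choose k ≤ m ^ ((range (s + 1)).filter Nat.Prime).card := by
  have hC := Nat.choose_ne_zero hk
  have h1 : ∏ p ∈ (m.choose k).factorization.support, p ^ (m.choose k).factorization p = m.choose k :=
    Nat.prod_factorization_pow_eq_self hC
  rw [← h1]
  refine le_trans (prod_le_pow_card _ _ m fun p _ => Nat.pow_factorization_choose_le hm) ?_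
  refine Nat.pow_le_pow_right hm (card_le_card fun p hp => ?_)
  rw [Nat.support_factorization, Nat.mem_primeFactors] at hp
  simp only [mem_filter, mem_range]
  exact ⟨Nat.lt_succ_of_le (h p hp.1 hp.2.1), hp.1⟩

theorem choose_mono {m : ℕ} : ∀ {b a : ℕ}, a ≤ b → b ≤ m / 2 → m.choose a ≤ m.choose b := by
  intro b
  induction b with
  | zero => intro a ha _; obtain rfl := Nat.le_zero.1 ha; rfl
  | succ b ih =>
    intro a ha hb
    rcases ha.eq_or_lt with rfl | h
    · rfl
    · exact (ih (Nat.le_of_lt_succ h) (by omega)).trans (Nat.choose_le_succ_of_lt_half_left (by omega))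

/-- The small values. -/
theorem pow_lt_choose_small {m s : ℕ} (hm : 5 ≤ m) (hs1 : 1 ≤ s) (hs : s < 8) (hsm : s * s ≤ m) :
    m ^ ((range (s + 1)).filter Nat.Prime).card < m.choose s := by
  have e : ((m.choose s) * s.factorial : ℕ) = m.descFactorial s := by
    rw [Nat.descFactorial_eq_factorial_mul_choose, mul_comm]
  have hpos : 0 < s.factorial := Nat.factorial_pos s
  refine Nat.lt_of_mul_lt_mul_right (a := s.factorial) ?_
  rw [e]
  interval_cases s
  · rw [show ((range (1 + 1)).filter Nat.Prime).card = 0 by decide]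
    simp [Nat.descFactorial, Nat.factorial]; omega
  · rw [show ((range (2 + 1)).filter Nat.Prime).card = 1 by decide]
    obtain ⟨d, rfl⟩ : ∃ d, m = d + 5 := ⟨m - 5, by omega⟩
    simp [Nat.descFactorial, Nat.factorial]; nlinarith
  · rw [show ((range (3 + 1)).filter Nat.Prime).card = 2 by decide]
    obtain ⟨d, rfl⟩ : ∃ d, m = d + 9 := ⟨m - 9, by omega⟩
    simp [Nat.descFactorial, Nat.factorial]; nlinarith
  · rw [show ((range (4 + 1)).filter Nat.Prime).card = 2 by decide]
    obtain ⟨d, rfl⟩ : ∃ d, m = d + 16 := ⟨m - 16, by omega⟩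
    simp [Nat.descFactorial, Nat.factorial]; ring_nf; nlinarith [Nat.zero_le (d ^ 2), Nat.zero_le (d ^ 3), Nat.zero_le (d ^ 4)]
  · rw [show ((range (5 + 1)).filter Nat.Prime).card = 3 by decide]
    obtain ⟨d, rfl⟩ : ∃ d, m = d + 25 := ⟨m - 25, by omega⟩
    simp [Nat.descFactorial, Nat.factorial]; ring_nf; nlinarith [Nat.zero_le (d ^ 2), Nat.zero_le (d ^ 3), Nat.zero_le (d ^ 4), Nat.zero_le (d ^ 5)]
  · rw [show ((range (6 + 1)).filter Nat.Prime).card = 3 by decide]
    obtain ⟨d, rfl⟩ : ∃ d, m = d + 36 := ⟨m - 36, by omega⟩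
    simp [Nat.descFactorial, Nat.factorial]; ring_nf; nlinarith [Nat.zero_le (d ^ 2), Nat.zero_le (d ^ 3), Nat.zero_le (d ^ 4), Nat.zero_le (d ^ 5), Nat.zero_le (d ^ 6)]
  · rw [show ((range (7 + 1)).filter Nat.Prime).card = 4 by decide]
    obtain ⟨d, rfl⟩ : ∃ d, m = d + 49 := ⟨m - 49, by omega⟩
    simp [Nat.descFactorial, Nat.factorial]; ring_nf; nlinarith [Nat.zero_le (d ^ 2), Nat.zero_le (d ^ 3), Nat.zero_le (d ^ 4), Nat.zero_le (d ^ 5), Nat.zero_le (d ^ 6), Nat.zero_le (d ^ 7)]

theorem pow_lt_mul_choose {m s : ℕ} (hs : s < m) (hs2 : 2 ≤ s) : m ^ s < m.choose s * s ^ s := by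
  have h1 : m ^ s * s.factorial = ∏ i ∈ range s, m * (s - i) := by
    rw [prod_mul_distrib, prod_const, card_range, ← Nat.descFactorial_eq_prod_range, Nat.descFactorial_self]
  have h2 : m.choose s * s ^ s * s.factorial = ∏ i ∈ range s, (m - i) * s := by
    rw [prod_mul_distrib, prod_const, card_range, ← Nat.descFactorial_eq_prod_range,
      Nat.descFactorial_eq_factorial_mul_choose]
    ring
  refine Nat.lt_of_mul_lt_mul_right (a := s.factorial) ?_
  rw [h1, h2]
  refine prod_lt_prod (fun i hi => ?_) (fun i hi => ?_) ⟨1, by simp; omega, ?_⟩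
  · rw [mem_range] at hi
    exact Nat.mul_pos (by omega) (by omega)
  · rw [mem_range] at hi
    rw [Nat.mul_sub, Nat.sub_mul]
    have : i * s ≤ m * i := by rw [mul_comm i s, mul_comm m i]; nlinarith
    omega
  · rw [Nat.mul_sub, Nat.sub_mul, mul_one, one_mul]
    have : m ≤ m * s := Nat.le_mul_of_pos_right m (by omega)
    omega

/-- Some prime divisor of `C(m, k)` exceeds `k` or has square exceeding `m`. -/
theorem exists_large_prime {m k : ℕ} (hm : 5 ≤ m) (hk1 : 1 ≤ k) (hk : k ≤ m / 2) :
    ∃ p, p.Prime ∧ p ∣ m.choose k ∧ (k < p ∨ m < p * p) ∧ (2 ≤ k → 2 < p) := by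
  set s := min k (Nat.sqrt m) with hsdef
  have hsq1 : 2 ≤ Nat.sqrt m := Nat.le_sqrt.2 (by omega)
  have hs1 : 1 ≤ s := by omega
  have hsm : s * s ≤ m := le_trans (Nat.mul_le_mul (min_le_right _ _) (min_le_right _ _)) (Nat.sqrt_le m)
  have hmono : m.choose s ≤ m.choose k := choose_mono (min_le_left _ _) hk
  by_contra hno
  push Not at hno
  have hall : ∀ p : ℕ, p.Prime → p ∣ m.choose k → p ≤ s := by
    intro p hp hpd
    by_contra hlt
    have h1 : k < p ∨ m < p * p := by
      rcases Nat.lt_or_ge k p with h | h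
      · exact Or.inl h
      · right
        have : Nat.sqrt m < p := by omega
        exact Nat.sqrt_lt.1 this
    obtain ⟨hk2, hp2⟩ := hno p hp hpd h1
    have : 2 ≤ s := le_min hk2 hsq1
    omega
  have hle := (choose_le_pow (k := k) (by omega) (by omega) hall)
  rcases Nat.lt_or_ge s 8 with hs8 | hs8
  · exact absurd (pow_lt_choose_small hm hs1 hs8 hsm) (by omega)
  · have h2 := card_primes_le s hs8
    set π := ((range (s + 1)).filter Nat.Prime).card
    have h3 : m ^ s < m.choose s * s ^ s := pow_lt_mul_choose (by nlinarith) (by omega)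
    have h4 : (m.choose s) ^ 2 ≤ m ^ s := by
      calc (m.choose s) ^ 2 ≤ (m ^ π) ^ 2 := Nat.pow_le_pow_left (hmono.trans hle) 2
        _ = m ^ (2 * π) := by rw [← pow_mul, mul_comm]
        _ ≤ m ^ s := Nat.pow_le_pow_right (by omega) h2
    have h5 : m.choose s < s ^ s := by
      refine Nat.lt_of_mul_lt_mul_left (a := m.choose s) ?_
      rw [← sq]
      exact h4.trans_lt h3
    have h6 : s ^ s < m.choose s := by
      refine Nat.lt_of_mul_lt_mul_right (a := s ^ s) ?_
      rw [← mul_pow]
      exact (Nat.pow_le_pow_left hsm s).trans_lt h3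
    omega

end CfsgLib.AltDerange
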