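import Cfsg.Agent.AltDerange.ChoosePrime
import Cfsg.Agent.Jordan.PrimeCycle

/-!
Maximal subgroups of `Sym(m)` or `Alt(m)` miss some class of elements of order the largest prime
dividing their index.
-/

set_option autoImplicit false
set_option linter.unusedSectionVars false

namespace CfsgLib.AltDerange

open Equiv Equiv.Perm Finset MulAction
open scoped Pointwise

variable {m : ℕ}

/-- `K` meets every class of elements of order `r` of the alternating group. -/
def MeetsAll (K : Subgroup (Perm (Fin m))) (r : ℕ) : Prop :=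
  ∀ a : Perm (Fin m), a ∈ alternatingGroup (Fin m) → orderOf a = r →
    ∃ σ ∈ alternatingGroup (Fin m), σ * a * σ⁻¹ ∈ K

/-- A permutation with `j` cycles of length `r` and no others. -/
theorem exists_type {r j : ℕ} (hr : 2 ≤ r) (hj : j * r ≤ m) :
    ∃ a : Perm (Fin m), a.cycleType = Multiset.replicate j r := by
  rw [exists_with_cycleType_iff]
  refine ⟨by rw [Multiset.sum_replicate, smul_eq_mul, Fintype.card_fin]; exact hj, fun x hx => ?_⟩
  rw [Multiset.eq_of_mem_replicate hx]; exact hr

theorem orderOf_type {a : Perm (Fin m)} {r j : ℕ} (hj : j ≠ 0) (h : a.cycleType = Multiset.replicate j r) :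
    orderOf a = r := by
  rw [← lcm_cycleType, h]
  clear h
  induction j with
  | zero => exact absurd rfl hj
  | succ n ih =>
    rcases Nat.eq_zero_or_pos n with rfl | hn
    · simp
    · rw [Multiset.replicate_succ, Multiset.lcm_cons, ih (by omega)]
      exact Nat.lcm_self r

/-- A cycle of given length. -/
theorem exists_cycle {p : ℕ} (hp : 2 ≤ p) (hpm : p ≤ m) :
    ∃ g : Perm (Fin m), g.IsCycle ∧ g.support.card = p ∧ orderOf g = p := by
  obtain ⟨g, hg⟩ := exists_type (m := m) (r := p) (j := 1) hp (by rwa [one_mul])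
  refine ⟨g, card_cycleType_eq_one.1 (by rw [hg]; simp), ?_, orderOf_type one_ne_zero hg⟩
  rw [← sum_cycleType, hg]
  simp

theorem mem_alt_of_odd_order {g : Perm (Fin m)} (h : Odd (orderOf g)) : g ∈ alternatingGroup (Fin m) := by
  rw [mem_alternatingGroup]
  rcases Int.units_eq_one_or (Perm.sign g) with h1 | h1
  · exact h1
  · have := congrArg Perm.sign (pow_orderOf_eq_one g)
    rw [map_pow, map_one, h1, Odd.neg_one_pow h] at this
    exact absurd this (by decide)

/-- An invariant set has size congruent to that of a set of fixed points. -/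
theorem invariant_card_mod {b : Perm (Fin m)} {r : ℕ} [Fact r.Prime] (hb : b ^ r = 1) {S : Finset (Fin m)}
    (hS : ∀ x, b x ∈ S ↔ x ∈ S) : ∃ c, c ≤ m - b.support.card ∧ c ≤ S.card ∧ c ≡ S.card [MOD r] := by
  classical
  let b' : Perm S := b.subtypePerm hS
  have hb' : b' ^ r ^ 1 = 1 := by
    rw [pow_one, show b' ^ r = (b ^ r).subtypePerm _ from Perm.subtypePerm_pow b r hS]
    exact Equiv.ext fun x => Subtype.ext (by simp [hb])
  refine ⟨b'.supportᶜ.card, ?_, ?_, ?_⟩
  · have e : b'.supportᶜ.card ≤ b.supportᶜ.card := by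
      refine Finset.card_le_card_of_injOn (fun x => (x : Fin m)) (fun x hx => ?_) Subtype.val_injective.injOn
      simp only [mem_coe, Finset.mem_compl, Perm.mem_support, not_not] at hx ⊢
      exact congrArg Subtype.val hx
    rw [Finset.card_compl b.support, Fintype.card_fin] at e
    exact e
  · exact le_trans (Finset.card_le_univ _) (le_of_eq (Fintype.card_coe S))
  · simpa using card_compl_support_modEq hb'

/-- Lucas: no carry in the last digit, and only one more digit or a top digit of `k` equal to zero. -/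
theorem not_dvd_choose {r k : ℕ} (hr : r.Prime) (hk : k ≤ m) (hmod : k % r ≤ m % r)
    (h : k < r ∨ m < r * r) : ¬ r ∣ m.choose k := by
  haveI := Fact.mk hr
  have hsmall : ∀ a b : ℕ, b ≤ a → a < r → ¬ r ∣ a.choose b := by
    intro a b hb ha hd
    have h1 : r ∣ a.factorial := by
      rw [← Nat.choose_mul_factorial_mul_factorial hb]
      exact (hd.mul_right _).mul_right _
    have := hr.dvd_factorial.1 h1
    omega
  intro hd
  have e := Choose.choose_modEq_choose_mod_mul_choose_div_nat (p := r) (n := m) (k := k)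
  have h2 : r ∣ (m % r).choose (k % r) * (m / r).choose (k / r) := (e.dvd_iff dvd_rfl).1 hd
  rcases hr.dvd_mul.1 h2 with h3 | h3
  · exact hsmall _ _ hmod (Nat.mod_lt _ hr.pos) h3
  · rcases h with h | h
    · rw [Nat.div_eq_of_lt h, Nat.choose_zero_right] at h3
      exact hr.not_dvd_one h3
    · exact hsmall _ _ (Nat.div_le_div_right hk) (Nat.div_lt_of_lt_mul h) h3

/-- The setwise stabiliser of a finite set. -/
def setStab (S : Finset (Fin m)) : Subgroup (Perm (Fin m)) where
  carrier := {g | ∀ x, g x ∈ S ↔ x ∈ S}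
  one_mem' := fun _ => Iff.rfl
  mul_mem' := fun {g h} hg hh x => (hg (h x)).trans (hh x)
  inv_mem' := fun {g} hg x => by
    have := hg (g⁻¹ x)
    rw [Perm.inv_def, Equiv.apply_symm_apply] at this
    exact this.symm

/-- The index of a set stabiliser in the alternating group. -/
theorem setStab_index {k : ℕ} (hk : k + 2 ≤ m) {S : Finset (Fin m)} (hS : S.card = k) :
    ((setStab S).subgroupOf (alternatingGroup (Fin m))).index = m.choose k := by
  classical
  have hmap : ∀ (g : alternatingGroup (Fin m)) (T : Finset (Fin m)),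
      g • T = T.map ((g : Perm (Fin m)) : Fin m ≃ Fin m).toEmbedding := fun g T => by
    ext x
    rw [Finset.mem_smul_finset, Finset.mem_map]
    exact exists_congr fun y => and_congr_right fun _ => Iff.rfl
  have hst : MulAction.stabilizer (alternatingGroup (Fin m)) S = (setStab S).subgroupOf (alternatingGroup (Fin m)) := by
    ext g
    rw [MulAction.mem_stabilizer_iff, hmap, Subgroup.mem_subgroupOf]
    show S.map _ = S ↔ ∀ x, (g : Perm (Fin m)) x ∈ S ↔ x ∈ S
    constructor
    · intro h x
      conv_lhs => rw [← h]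
      simp [Finset.mem_map_equiv]
    · intro h
      ext x
      rw [Finset.mem_map_equiv, ← h, Equiv.apply_symm_apply]
  have horb : MulAction.orbit (alternatingGroup (Fin m)) S = {T : Finset (Fin m) | T.card = k} := by
    ext T
    constructor
    · rintro ⟨g, rfl⟩
      simp only [Set.mem_setOf_eq, Finset.card_smul_finset, hS]
    · intro hT
      have hT' : T.card = k := hT
      obtain ⟨e⟩ : Nonempty (S ≃ T) := ⟨Finset.equivOfCardEq (hS.trans hT'.symm)⟩
      let σ : Perm (Fin m) := e.extendSubtype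
      have hσ : S.map σ.toEmbedding = T := by
        refine Finset.eq_of_subset_of_card_le (fun x hx => ?_) (by rw [Finset.card_map, hS, hT'])
        obtain ⟨y, hy, rfl⟩ := Finset.mem_map.1 hx
        exact e.extendSubtype_mem y hy
      obtain ⟨u, v, hu, hv, huv⟩ : ∃ u v, u ∈ Tᶜ ∧ v ∈ Tᶜ ∧ u ≠ v := by
        have h2 : 1 < Tᶜ.card := by rw [Finset.card_compl, Fintype.card_fin, hT']; omega
        obtain ⟨u, hu, v, hv, huv⟩ := Finset.one_lt_card.1 h2
        exact ⟨u, v, hu, hv, huv⟩
      rcases Int.units_eq_one_or (Perm.sign σ) with h1 | h1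
      · exact ⟨⟨σ, h1⟩, (hmap _ S).trans hσ⟩
      · refine ⟨⟨swap u v * σ, by rw [mem_alternatingGroup, map_mul, sign_swap huv, h1]; rfl⟩, ?_⟩
        refine (hmap _ S).trans ?_
        rw [← hσ]
        ext x
        simp only [Finset.mem_map_equiv]
        show (swap u v * σ).symm x ∈ S ↔ σ.symm x ∈ S
        rw [Perm.mul_def, Equiv.symm_trans_apply, Equiv.symm_swap]
        have hT2 : ∀ y, σ.symm y ∈ S ↔ y ∈ T := fun y => by rw [← hσ, Finset.mem_map_equiv]
        rw [hT2, hT2]
        rcases eq_or_ne x u with rfl | h3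
        · rw [Equiv.swap_apply_left]
          exact iff_of_false (Finset.mem_compl.1 hv) (Finset.mem_compl.1 hu)
        rcases eq_or_ne x v with rfl | h4
        · rw [Equiv.swap_apply_right]
          exact iff_of_false (Finset.mem_compl.1 hu) (Finset.mem_compl.1 hv)
        rw [Equiv.swap_apply_of_ne_of_ne h3 h4]
  rw [← hst, MulAction.index_stabilizer, horb,
    show {T : Finset (Fin m) | T.card = k} = ((Finset.univ.powersetCard k : Finset (Finset (Fin m))) : Set _) by
      ext T; simp,
    Set.ncard_coe_finset, Finset.card_powersetCard, Finset.card_univ, Fintype.card_fin]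

/-- A permutation group of prime-power-free order contains no large prime when imprimitive. -/
theorem not_dvd_card_of_block {M : Subgroup (Perm (Fin m))} [IsPretransitive M (Fin m)]
    (hM : ¬ IsPreprimitive M (Fin m)) {p : ℕ} (hp : p.Prime) (hpm : m < 2 * p) : ¬ p ∣ Nat.card M := by
  classical
  intro hd
  haveI := Fact.mk hp
  obtain ⟨x, hx⟩ := exists_prime_orderOf_dvd_card' p hd
  have hx1 : x ≠ 1 := fun e => by rw [e, orderOf_one] at hx; exact hp.ne_one hx.symm
  obtain ⟨B, hB, hBt⟩ : ∃ B : Set (Fin m), IsBlock M B ∧ ¬ IsTrivialBlock B := by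
    by_contra h
    push Not at h
    exact hM ⟨fun {B} hB => h B hB⟩
  rw [IsTrivialBlock, not_or, Set.not_subsingleton_iff] at hBt
  obtain ⟨hBn, hBu⟩ := hBt
  have hBne := hBn.nonempty
  have hmul := hB.ncard_block_mul_ncard_orbit_eq hBne
  rw [Nat.card_fin] at hmul
  have hB2 : 2 ≤ B.ncard := (Set.one_lt_ncard (Set.toFinite B)).2 hBn
  have hO2 : 2 ≤ (orbit M B).ncard := by
    by_contra h
    have h1 : (orbit M B).ncard = 1 := by
      rcases Nat.eq_zero_or_pos (orbit M B).ncard with h0 | h0
      · rw [Set.ncard_eq_zero (Set.toFinite _)] at h0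
        exact absurd (mem_orbit_self B) (h0 ▸ Set.notMem_empty B)
      · omega
    rw [h1, mul_one] at hmul
    exact hBu (Set.eq_of_subset_of_ncard_le (Set.subset_univ _) (by rw [Set.ncard_univ, Nat.card_fin, hmul]) )
  have hBp : B.ncard < p := by nlinarith
  have hOp : (orbit M B).ncard < p := by nlinarith
  -- an element of order `p` fixes anything with fewer than `p` translates
  have key : ∀ {X : Type} [DecidableEq X] (f : Perm X) (T : Finset X), (∀ y, f y ∈ T ↔ y ∈ T) →
      f ^ p = 1 → T.card < p → ∀ y ∈ T, f y = y := by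
    intro X _ f T hT hf hlt y hy
    have h1 : (f.subtypePerm hT) ^ p = 1 := by
      rw [Perm.subtypePerm_pow f p hT]
      exact Equiv.ext fun z => Subtype.ext (by simp [hf])
    by_contra hne
    have h2 : orderOf (f.subtypePerm hT) = p := orderOf_eq_prime h1 fun e => hne
      (congrArg Subtype.val (Equiv.ext_iff.1 e ⟨y, hy⟩))
    have h3 := orderOf_dvd_natCard (f.subtypePerm hT)
    rw [h2, Nat.card_perm, Nat.card_eq_finsetCard] at h3
    have := hp.dvd_factorial.1 h3
    omega
  have hxp : x ^ p = 1 := by rw [← hx]; exact pow_orderOf_eq_one x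
  -- blocks are fixed
  have hblocks : ∀ g : M, x • (g • B) = g • B := by
    intro g
    let f : Perm (Set (Fin m)) := MulAction.toPerm x
    have hf : f ^ p = 1 := by
      rw [show f = MulAction.toPermHom M (Set (Fin m)) x from rfl, ← map_pow, hxp, map_one]
    refine key f ((Set.toFinite (orbit M B)).toFinset) (fun y => ?_) hf
      (by rw [← Set.ncard_eq_toFinset_card]; exact hOp) (g • B) (by simp [mem_orbit])
    simp only [Set.Finite.mem_toFinset]
    exact ⟨fun h => inv_smul_smul x y ▸ MulAction.mem_orbit_of_mem_orbit x⁻¹ h, fun h => MulAction.mem_orbit_of_mem_orbit x h⟩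
  refine hx1 (Subtype.ext (Equiv.ext fun y => ?_))
  obtain ⟨b, hb⟩ := hBne
  obtain ⟨g, rfl⟩ := MulAction.exists_smul_eq M b y
  have hfix := hblocks g
  refine key (x : Perm (Fin m)) (Set.toFinite (g • B)).toFinset (fun z => ?_)
    (by rw [← Subgroup.coe_pow, hxp, Subgroup.coe_one]) ?_ _ (by simp [Set.smul_mem_smul_set, hb])
  · simp only [Set.Finite.mem_toFinset]
    show x • z ∈ g • B ↔ z ∈ g • B
    conv_lhs => rw [← hfix]
    exact Set.smul_mem_smul_set_iff
  · rw [← Set.ncard_eq_toFinset_card, Set.ncard_smul_set]; exact hBp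

/-- **Main lemma.** -/
theorem core (hm : 5 ≤ m) {I M : Subgroup (Perm (Fin m))} (hI : alternatingGroup (Fin m) ≤ I)
    (hMI : M ≤ I) (hmax : ∀ L : Subgroup (Perm (Fin m)), M ≤ L → L ≤ I → L = M ∨ L = I)
    (hA : ¬ alternatingGroup (Fin m) ≤ M) {r : ℕ} (hr : r.Prime)
    (hrd : r ∣ (M.subgroupOf (alternatingGroup (Fin m))).index)
    (hrmax : ∀ s : ℕ, s.Prime → s ∣ (M.subgroupOf (alternatingGroup (Fin m))).index → s ≤ r) :
    ¬ MeetsAll (M ⊓ alternatingGroup (Fin m)) r := by
  classical
  intro hmeet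
  haveI := Fact.mk hr
  haveI : Nontrivial (Fin m) := Fin.nontrivial_iff_two_le.2 (by omega)
  set A := alternatingGroup (Fin m)
  set K := M.subgroupOf A
  have hKA : Nat.card K * K.index = Nat.card A := Subgroup.card_mul_index K
  have hA2 : 2 * Nat.card A = m.factorial := by
    rw [two_mul_nat_card_alternatingGroup, Nat.card_perm, Nat.card_fin]
  -- `2 r ≤ m`
  have hrA : r ∣ Nat.card A := hrd.trans (Dvd.intro_left _ hKA)
  have hrm : r ≤ m := hr.dvd_factorial.1 (hA2 ▸ hrA.mul_left 2)
  have h2r : 2 * r ≤ m := by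
    by_contra hlt
    obtain ⟨y, hy⟩ := exists_prime_orderOf_dvd_card' r hrA
    obtain ⟨σ, hσ, hmem⟩ := hmeet y y.2 (by rw [Subgroup.orderOf_coe, hy])
    have h1 : r ∣ Nat.card K := by
      let z : K := ⟨⟨σ * y * σ⁻¹, mul_mem (mul_mem hσ y.2) (inv_mem hσ)⟩, hmem.1⟩
      have hz : orderOf z = r := by
        rw [← Subgroup.orderOf_coe, ← Subgroup.orderOf_coe]
        show orderOf (σ * (y : Perm (Fin m)) * σ⁻¹) = r
        rw [show σ * (y : Perm (Fin m)) * σ⁻¹ = MulAut.conj σ y from rfl, MulEquiv.orderOf_eq,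
          Subgroup.orderOf_coe, hy]
      exact hz ▸ orderOf_dvd_natCard z
    have h3 : r ^ 2 ∣ m.factorial := by
      rw [← hA2, ← hKA, sq]; exact (mul_dvd_mul h1 hrd).mul_left 2
    rw [← Nat.choose_mul_factorial_mul_factorial hrm] at h3
    have hcop1 : ¬ r ∣ m.choose r := not_dvd_choose hr hrm (by rw [Nat.mod_self]; exact Nat.zero_le _)
      (Or.inr (by nlinarith [hr.two_le]))
    have hcop2 : ¬ r ∣ (m - r).factorial := fun h => by have := hr.dvd_factorial.1 h; omega
    have h4 : r ^ 2 ∣ r.factorial := by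
      have c1 : Nat.Coprime (r ^ 2) (m.choose r) := Nat.Coprime.pow_left 2 (hr.coprime_iff_not_dvd.2 hcop1)
      have c2 : Nat.Coprime (r ^ 2) (m - r).factorial := Nat.Coprime.pow_left 2 (hr.coprime_iff_not_dvd.2 hcop2)
      exact c1.dvd_of_dvd_mul_left (c2.dvd_of_dvd_mul_right h3)
    exact CfsgLib.Jordan.not_sq_dvd_factorial hr h4
  -- a cycle of prime length in `M`
  obtain ⟨q, g, hq, hgc, hgs, hg, hcases⟩ : ∃ (q : ℕ) (g : Perm (Fin m)), q.Prime ∧ g.IsCycle ∧
      g.support.card = q ∧ g ∈ M ∧ (q = 3 ∨ q + 3 ≤ m) := by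
    rcases hr.eq_two_or_odd' with h2 | hodd
    · haveI := Fact.mk Nat.prime_three
      have h3 : ¬ 3 ∣ K.index := fun h => by have := hrmax 3 Nat.prime_three h; omega
      obtain ⟨g, hgc, hgs, hgo⟩ := exists_cycle (m := m) (p := 3) (by norm_num) (by omega)
      have hgA : g ∈ A := mem_alt_of_odd_order (by rw [hgo]; decide)
      obtain ⟨Q, hQ⟩ := (IsPGroup.of_card (p := 3) (n := 1) (G := Subgroup.zpowers (⟨g, hgA⟩ : A))
        (by rw [Nat.card_zpowers, pow_one, ← Subgroup.orderOf_coe]; exact hgo)).exists_le_sylow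
      let P : Sylow 3 K := default
      have hP : ¬ 3 ∣ ((P : Subgroup K).map K.subtype).index := by
        rw [Subgroup.index_map_subtype]
        intro h
        rcases Nat.prime_three.dvd_mul.1 h with h | h
        · exact P.not_dvd_index h
        · exact h3 h
      have hP' : IsPGroup 3 ((P : Subgroup K).map K.subtype) := P.2.map _
      obtain ⟨σ, hσ⟩ := MulAction.exists_smul_eq A Q (hP'.toSylow hP)
      have hmem : MulAut.conj σ • (⟨g, hgA⟩ : A) ∈ ((σ • Q : Sylow 3 A) : Subgroup A) := by
        rw [Sylow.coe_subgroup_smul]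
        exact Subgroup.smul_mem_pointwise_smul _ _ _ (hQ (Subgroup.mem_zpowers _))
      rw [hσ, IsPGroup.toSylow_coe] at hmem
      have hK : MulAut.conj σ • (⟨g, hgA⟩ : A) ∈ K := Subgroup.map_subtype_le _ hmem
      refine ⟨3, (σ : Perm (Fin m)) * g * (σ : Perm (Fin m))⁻¹, Nat.prime_three, hgc.conj, ?_, hK, Or.inl rfl⟩
      rw [Perm.card_support_conj, hgs]
    · obtain ⟨g, hgc, hgs, hgo⟩ := exists_cycle (m := m) (p := r) hr.two_le hrm
      obtain ⟨σ, hσ, hmem⟩ := hmeet g (mem_alt_of_odd_order (hgo.symm ▸ hodd)) hgo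
      refine ⟨r, σ * g * σ⁻¹, hr, hgc.conj, by rw [Perm.card_support_conj, hgs], hmem.1, ?_⟩
      rcases hodd with ⟨t, rfl⟩
      have := hr.two_le
      omega
  by_cases htr : IsPretransitive M (Fin m)
  · by_cases hprim : IsPreprimitive M (Fin m)
    · refine hA ?_
      rcases hcases with rfl | h
      · exact alternatingGroup_le_of_isPreprimitive_of_isThreeCycle_mem hprim
          (card_support_eq_three_iff.1 hgs) hg
      · exact CfsgLib.Jordan.alternatingGroup_le_of_prime_cycle M hprim hq
          (by rw [Fintype.card_fin]; exact h) hgc hgs hg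
    · obtain ⟨p, hp, hp1, hp2⟩ := Nat.exists_prime_lt_and_le_two_mul (m / 2) (by omega)
      have hpM : ¬ p ∣ Nat.card M := not_dvd_card_of_block hprim hp (by omega)
      have hpK : ¬ p ∣ Nat.card K := fun h => hpM (h.trans (by
        rw [← Subgroup.card_map_of_injective (f := A.subtype) A.subtype_injective (K := K)]
        exact Subgroup.card_dvd_of_le (by rintro _ ⟨y, hy, rfl⟩; exact hy)))
      have hp3 : 3 ≤ p := by omega
      have hpA : p ∣ Nat.card A := by
        have h := Nat.dvd_factorial hp.pos (show p ≤ m by omega)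
        rw [← hA2] at h
        exact (hp.dvd_mul.1 h).resolve_left fun h => by have := Nat.le_of_dvd (by norm_num) h; omega
      have := hrmax p hp ((hp.dvd_mul.1 (hKA.symm ▸ hpA)).resolve_left hpK)
      omega
  · -- intransitive: `M` is the stabiliser of a set
    obtain ⟨a₀, b₀, hab⟩ : ∃ a b : Fin m, ∀ g ∈ M, g a ≠ b := by
      by_contra h
      push Not at h
      exact htr ⟨fun a b => by obtain ⟨g, hg, e⟩ := h a b; exact ⟨⟨g, hg⟩, e⟩⟩
    obtain ⟨S, k, hSk, hk1, hk2, hMS⟩ : ∃ (S : Finset (Fin m)) (k : ℕ), S.card = k ∧ 1 ≤ k ∧ k ≤ m / 2 ∧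
        M ≤ setStab S := by
      let O : Finset (Fin m) := Finset.univ.filter fun x => x ∈ orbit M a₀
      have hO : ∀ g ∈ M, ∀ x, g x ∈ O ↔ x ∈ O := fun g hg x => by
        simp only [O, Finset.mem_filter, Finset.mem_univ, true_and]
        exact (⟨fun h => inv_smul_smul (⟨g, hg⟩ : M) x ▸ MulAction.mem_orbit_of_mem_orbit (⟨g, hg⟩⁻¹ : M) h, fun h => MulAction.mem_orbit_of_mem_orbit (⟨g, hg⟩ : M) h⟩ : (⟨g, hg⟩ : M) • x ∈ orbit M a₀ ↔ x ∈ orbit M a₀)
      have h1 : a₀ ∈ O := by simp [O]
      have h2 : b₀ ∉ O := by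
        simp only [O, Finset.mem_filter, Finset.mem_univ, true_and]
        rintro ⟨g, hg⟩
        exact hab g g.2 hg
      have h3 : 1 ≤ O.card := Finset.card_pos.2 ⟨a₀, h1⟩
      have h4 : 1 ≤ Oᶜ.card := Finset.card_pos.2 ⟨b₀, Finset.mem_compl.2 h2⟩
      have h5 : Oᶜ.card = m - O.card := by rw [Finset.card_compl, Fintype.card_fin]
      by_cases h6 : O.card ≤ m / 2
      · exact ⟨O, _, rfl, h3, h6, fun g hg => hO g hg⟩
      · refine ⟨Oᶜ, _, rfl, h4, by omega, fun g hg x => ?_⟩
        simp only [Finset.mem_compl]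
        exact not_congr (hO g hg x)
    have hk' : k + 2 ≤ m := by omega
    have hidx := setStab_index hk' hSk
    have hne1 : m.choose k ≠ 1 := by
      intro h
      rcases Nat.choose_eq_one_iff.1 h with h | h <;> omega
    have heq : I ⊓ setStab S = M := by
      refine (hmax _ (le_inf hMI hMS) inf_le_left).resolve_right fun h => hne1 ?_
      have h1 : A ≤ setStab S := hI.trans (h ▸ inf_le_right)
      rw [← hidx, Subgroup.subgroupOf_eq_top.2 h1, Subgroup.index_top]
    have hKeq : K = (setStab S).subgroupOf A := by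
      ext y
      rw [Subgroup.mem_subgroupOf, Subgroup.mem_subgroupOf, ← heq]
      exact ⟨fun h => h.2, fun h => ⟨hI y.2, h⟩⟩
    have hKi : K.index = m.choose k := by rw [hKeq, hidx]
    rw [hKi] at hrd hrmax
    obtain ⟨p, hp, hpd, hpbig, hp3⟩ := exists_large_prime hm hk1 hk2
    have hpr := hrmax p hp hpd
    have hbig : k < r ∨ m < r * r := hpbig.imp (fun h => h.trans_le hpr) fun h => h.trans_le (Nat.mul_le_mul hpr hpr)
    -- the element with as many cycles as possible
    have hj : m / r ≠ 0 := Nat.div_ne_zero_iff.2 ⟨hr.ne_zero, hrm⟩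
    obtain ⟨a, ha⟩ := exists_type (m := m) (r := r) (j := m / r) hr.two_le (Nat.div_mul_le_self m r)
    have hsupp : a.support.card = m / r * r := by
      rw [← sum_cycleType, ha, Multiset.sum_replicate, smul_eq_mul]
    have hao := orderOf_type hj ha
    have haA : a ∈ A := by
      rcases hr.eq_two_or_odd' with rfl | hodd
      · have hk : k = 1 := by
          by_contra hk
          have := hp3 (by omega)
          omega
        subst hk
        rw [Nat.choose_one_right] at hrd hrmax
        obtain ⟨t, rfl⟩ := hrd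
        have ht : 2 ∣ t := by
          by_contra h
          obtain ⟨s, hs, hsd⟩ := Nat.exists_prime_and_dvd (show t ≠ 1 by omega)
          have := hrmax s hs (hsd.mul_left 2)
          have := hs.two_le
          obtain rfl : s = 2 := by omega
          exact h hsd
        rw [mem_alternatingGroup, sign_of_cycleType, ha, Multiset.sum_replicate, Multiset.card_replicate,
          smul_eq_mul, Nat.mul_div_cancel_left t (by norm_num)]
        refine Even.neg_one_pow ?_
        obtain ⟨t', rfl⟩ := ht
        exact ⟨2 * t' + t', by ring⟩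
      · exact mem_alt_of_odd_order (hao.symm ▸ hodd)
    obtain ⟨σ, hσ, hmem⟩ := hmeet a haA hao
    have hinv : ∀ x, (σ * a * σ⁻¹) x ∈ S ↔ x ∈ S := hMS hmem.1
    have hb : (σ * a * σ⁻¹) ^ r = 1 := by
      rw [conj_pow, show a ^ r = 1 by rw [← hao]; exact pow_orderOf_eq_one a, mul_one, mul_inv_cancel]
    obtain ⟨c, hc1, -, hc3⟩ := invariant_card_mod hb hinv
    rw [Perm.card_support_conj, hsupp] at hc1
    have hmod : m - m / r * r = m % r := by
      have h := Nat.div_add_mod m r
      rw [Nat.mul_comm] at h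
      omega
    have hlt := Nat.mod_lt m hr.pos
    have hkmod : k % r ≤ m % r := by
      rw [hSk, Nat.ModEq, Nat.mod_eq_of_lt (show c < r by omega)] at hc3
      omega
    exact not_dvd_choose hr (by omega) hkmod hbig hrd

end CfsgLib.AltDerange
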