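import Cfsg.Agent.AltDerange.Core

/-!
The alternating group of degree six.
-/

set_option autoImplicit false
set_option maxRecDepth 10000

namespace CfsgLib.AltDerange

open Equiv Equiv.Perm

theorem six_no_fifteen : ∀ g : Perm (Fin 6), g ^ 15 = 1 → g ^ 3 = 1 ∨ g ^ 5 = 1 := by decide +kernel

theorem six {K : Subgroup (alternatingGroup (Fin 6))} (hK : K ≠ ⊤) {r : ℕ} (hr : r.Prime)
    (hrd : r ∣ K.index) (hrmax : ∀ s : ℕ, s.Prime → s ∣ K.index → s ≤ r) :
    ∃ a : alternatingGroup (Fin 6), orderOf a = r ∧ ∀ σ : alternatingGroup (Fin 6), σ * a * σ⁻¹ ∉ K := by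
  classical
  haveI := Fact.mk hr
  by_contra hall
  push Not at hall
  have hcard : Nat.card (alternatingGroup (Fin 6)) = 360 := by
    have := two_mul_nat_card_alternatingGroup (α := Fin 6)
    rw [Nat.card_perm, Nat.card_fin] at this
    rw [show (6 : ℕ).factorial = 720 from rfl] at this
    omega
  have hmul : Nat.card K * K.index = 360 := by rw [K.card_mul_index, hcard]
  have hconjK : ∀ {a σ : alternatingGroup (Fin 6)} (h : σ * a * σ⁻¹ ∈ K),
      orderOf (⟨_, h⟩ : K) = orderOf a := fun {a σ} h => by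
    rw [← Subgroup.orderOf_coe]
    show orderOf (MulAut.conj σ a) = _
    exact MulEquiv.orderOf_eq _ a
  have hrA : r ∣ 360 := hrd.trans (Dvd.intro_left _ hmul)
  obtain ⟨y, hy⟩ := exists_prime_orderOf_dvd_card' r (hcard.symm ▸ hrA : r ∣ Nat.card (alternatingGroup (Fin 6)))
  obtain ⟨σ, hσ⟩ := hall y hy
  have hrK : r ∣ Nat.card K := by
    rw [← hy, ← hconjK hσ]; exact orderOf_dvd_natCard _
  have hsq : r ^ 2 ∣ 360 := by rw [← hmul, sq]; exact mul_dvd_mul hrK hrd
  have hr23 : r = 2 ∨ r = 3 := by
    have h6 : r ≤ 6 := by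
      have : r ∣ (6 : ℕ).factorial := hrA.trans (by decide)
      exact hr.dvd_factorial.1 this
    interval_cases r <;> first | omega | exact absurd hr Nat.not_prime_one | exact absurd hr (by decide) | exact absurd hsq (by decide)
  rcases hr23 with rfl | rfl
  · -- the index is a power of two, hence eight
    have h3 : ¬ 3 ∣ K.index := fun h => by have := hrmax 3 Nat.prime_three h; omega
    have h5 : ¬ 5 ∣ K.index := fun h => by have := hrmax 5 Nat.prime_five h; omega
    have hle : K.index ≤ 8 := by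
      have hd : K.index ∣ 360 := Dvd.intro_left _ hmul
      have h1 : Nat.Coprime K.index 45 := by
        rw [show (45 : ℕ) = 3 ^ 2 * 5 by norm_num]
        exact Nat.Coprime.mul_right (Nat.Coprime.pow_right _ (Nat.prime_three.coprime_iff_not_dvd.2 h3).symm)
          (Nat.prime_five.coprime_iff_not_dvd.2 h5).symm
      exact Nat.le_of_dvd (by norm_num) (h1.dvd_of_dvd_mul_left (show K.index ∣ 45 * 8 by norm_num; exact hd))
    haveI : IsSimpleGroup (alternatingGroup (Fin 6)) :=
      alternatingGroup.isSimpleGroup (by rw [Nat.card_fin]; norm_num)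
    have hcore : K.normalCore = ⊥ := (K.normalCore_normal.eq_bot_or_eq_top).resolve_right fun h =>
      hK (top_le_iff.1 (h ▸ K.normalCore_le))
    have hinj : Function.Injective (MulAction.toPermHom (alternatingGroup (Fin 6))
        (alternatingGroup (Fin 6) ⧸ K)) := by
      rw [← MonoidHom.ker_eq_bot_iff, ← Subgroup.normalCore_eq_ker, hcore]
    have hdvd := Subgroup.card_dvd_of_injective _ hinj
    rw [hcard, Nat.card_perm, ← Subgroup.index] at hdvd
    have hK45 : Nat.card K = 45 := by
      have hidx : K.index = 8 := by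
        have h6 : 6 ≤ K.index := by
          by_contra h6
          have : K.index.factorial ≤ (5 : ℕ).factorial := Nat.factorial_le (by omega)
          have := Nat.le_of_dvd (Nat.factorial_pos _) hdvd
          norm_num [Nat.factorial] at *
          omega
        have hd : K.index ∣ 360 := Dvd.intro_left _ hmul
        interval_cases h : K.index <;> omega
      rw [hidx] at hmul
      omega
    haveI := Fact.mk Nat.prime_five
    haveI := Fact.mk Nat.prime_three
    obtain ⟨x, hx⟩ := exists_prime_orderOf_dvd_card' (G := K) 5 (by rw [hK45]; norm_num)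
    obtain ⟨z, hz⟩ := exists_prime_orderOf_dvd_card' (G := K) 3 (by rw [hK45]; norm_num)
    let P : Sylow 5 K := default
    have hPcard : Nat.card P = 5 := by
      rw [P.card_eq_multiplicity, hK45]
      rw [show (45 : ℕ) = 3 ^ 2 * 5 by norm_num, Nat.factorization_mul (by norm_num) (by norm_num),
        Nat.factorization_pow, Nat.Prime.factorization Nat.prime_five, Nat.Prime.factorization Nat.prime_three]
      simp
    have hn : Nat.card (Sylow 5 K) = 1 := by
      have h1 := card_sylow_modEq_one 5 K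
      have h2 : Nat.card (Sylow 5 K) ∣ 9 := by
        have h3 := P.card_dvd_index
        have h4 := (P : Subgroup K).card_mul_index
        rw [hK45, show Nat.card (P : Subgroup K) = 5 from hPcard] at h4
        rwa [show (P : Subgroup K).index = 9 by omega] at h3
      have h5' := Nat.le_of_dvd (by norm_num) h2
      rw [Nat.ModEq] at h1
      interval_cases h : Nat.card (Sylow 5 K) <;> omega
    haveI : Subsingleton (Sylow 5 K) := (Nat.card_eq_one_iff_unique.1 hn).1
    haveI hPn : (P : Subgroup K).Normal := P.normal_of_subsingleton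
    have hxP : x ∈ (P : Subgroup K) := by
      obtain ⟨Q, hQ⟩ := (IsPGroup.of_card (p := 5) (n := 1) (G := Subgroup.zpowers x)
        (by rw [Nat.card_zpowers, hx, pow_one])).exists_le_sylow
      rw [Subsingleton.elim P Q]
      exact hQ (Subgroup.mem_zpowers x)
    -- an element of order three centralises `P`
    let φ : K →* MulAut (P : Subgroup K) := MulAut.conjNormal
    haveI : IsCyclic (P : Subgroup K) := isCyclic_of_prime_card hPcard
    have hφz : φ z = 1 := by
      have h1 : orderOf (φ z) ∣ 3 := hz ▸ orderOf_map_dvd φ z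
      have h2 : orderOf (φ z) ∣ Nat.card (MulAut (P : Subgroup K)) := orderOf_dvd_natCard _
      rw [IsCyclic.card_mulAut, hPcard, Nat.totient_prime Nat.prime_five] at h2
      exact orderOf_eq_one_iff.1 (Nat.dvd_one.1 (by have := Nat.dvd_gcd h1 h2; norm_num at this; simp [this]))
    have hcomm : Commute z x := by
      have h := congrArg Subtype.val (DFunLike.congr_fun hφz ⟨x, hxP⟩)
      simp only [φ, MulAut.conjNormal_apply, MulAut.one_apply] at h
      calc z * x = (z * x * z⁻¹) * z := by group
        _ = x * z := by rw [h]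
    have ho : orderOf (z * x) = 15 := by
      rw [hcomm.orderOf_mul_eq_mul_orderOf_of_coprime (by rw [hz, hx]; norm_num), hz, hx]
    set g : Perm (Fin 6) := (((z * x : K) : alternatingGroup (Fin 6)) : Perm (Fin 6))
    have hg : orderOf g = 15 := by rw [Subgroup.orderOf_coe, Subgroup.orderOf_coe, ho]
    rcases six_no_fifteen g (by rw [← hg]; exact pow_orderOf_eq_one g) with h | h <;>
    · have := orderOf_dvd_of_pow_eq_one h
      rw [hg] at this
      norm_num at this
  · -- `K` has cyclic Sylow three-subgroups, so one type of elements of order three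
    obtain ⟨g₁, hg₁⟩ := exists_type (m := 6) (r := 3) (j := 1) (by norm_num) (by norm_num)
    obtain ⟨g₂, hg₂⟩ := exists_type (m := 6) (r := 3) (j := 2) (by norm_num) (by norm_num)
    have ho₁ := orderOf_type one_ne_zero hg₁
    have ho₂ := orderOf_type two_ne_zero hg₂
    obtain ⟨σ₁, hσ₁⟩ := hall ⟨g₁, mem_alt_of_odd_order (ho₁ ▸ by decide)⟩ (by rw [← Subgroup.orderOf_coe]; exact ho₁)
    obtain ⟨σ₂, hσ₂⟩ := hall ⟨g₂, mem_alt_of_odd_order (ho₂ ▸ by decide)⟩ (by rw [← Subgroup.orderOf_coe]; exact ho₂)
    haveI := Fact.mk Nat.prime_three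
    have h9 : ¬ 3 ^ 2 ∣ Nat.card K := fun h => by
      have h27 : 3 ^ 2 * 3 ∣ 360 := hmul ▸ mul_dvd_mul h hrd
      norm_num at h27
    have hfac : (Nat.card K).factorization 3 ≤ 1 := by
      by_contra hlt
      exact h9 (((Nat.prime_three).pow_dvd_iff_le_factorization Nat.card_pos.ne').2 (by omega))
    have hsyl : ∀ u : K, orderOf u = 3 → ∃ Q : Sylow 3 K, (Q : Subgroup K) = Subgroup.zpowers u := by
      intro u hu
      obtain ⟨Q, hQ⟩ := (IsPGroup.of_card (p := 3) (n := 1) (G := Subgroup.zpowers u)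
        (by rw [Nat.card_zpowers, hu, pow_one])).exists_le_sylow
      refine ⟨Q, (Subgroup.eq_of_le_of_card_ge hQ ?_).symm⟩
      rw [Q.card_eq_multiplicity, Nat.card_zpowers, hu]
      exact (Nat.pow_le_pow_right (by norm_num) hfac).trans (by norm_num)
    set u₁ : K := ⟨_, hσ₁⟩
    set u₂ : K := ⟨_, hσ₂⟩
    have e₁ : orderOf u₁ = 3 := by rw [hconjK hσ₁, ← Subgroup.orderOf_coe]; exact ho₁
    have e₂ : orderOf u₂ = 3 := by rw [hconjK hσ₂, ← Subgroup.orderOf_coe]; exact ho₂
    obtain ⟨Q₁, hQ₁⟩ := hsyl u₁ e₁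
    obtain ⟨Q₂, hQ₂⟩ := hsyl u₂ e₂
    obtain ⟨k, hk⟩ := MulAction.exists_smul_eq K Q₁ Q₂
    have hmem : MulAut.conj k • u₁ ∈ (Q₂ : Subgroup K) := by
      rw [← hk, Sylow.coe_subgroup_smul, hQ₁]
      exact Subgroup.smul_mem_pointwise_smul _ _ _ (Subgroup.mem_zpowers _)
    rw [hQ₂] at hmem
    obtain ⟨i, hi⟩ := hmem
    have hi' : (k * u₁ * k⁻¹ : K) = u₂ ^ i := hi.symm
    have hval := congrArg (fun u : K => ((u : alternatingGroup (Fin 6)) : Perm (Fin 6))) hi'
    simp only [Subgroup.coe_mul, Subgroup.coe_inv, Subgroup.coe_zpow] at hval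
    -- compare supports
    have hs₁ : (((u₁ : alternatingGroup (Fin 6))) : Perm (Fin 6)).support.card = 3 := by
      show ((σ₁ : Perm (Fin 6)) * g₁ * (σ₁ : Perm (Fin 6))⁻¹).support.card = 3
      rw [Perm.card_support_conj, ← sum_cycleType, hg₁]; simp
    have hs₂ : (((u₂ : alternatingGroup (Fin 6))) : Perm (Fin 6)).support.card = 6 := by
      show ((σ₂ : Perm (Fin 6)) * g₂ * (σ₂ : Perm (Fin 6))⁻¹).support.card = 6
      rw [Perm.card_support_conj, ← sum_cycleType, hg₂]; simp
    have h3 : (((u₂ : alternatingGroup (Fin 6)) : Perm (Fin 6))) ^ 3 = 1 := by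
      rw [← Subgroup.coe_pow, ← Subgroup.coe_pow, ← e₂, pow_orderOf_eq_one]; rfl
    have hiz : ¬ (3 : ℤ) ∣ i := by
      rintro ⟨j, rfl⟩
      rw [zpow_mul, zpow_ofNat, h3, one_zpow] at hval
      have := congrArg (fun f : Perm (Fin 6) => f.support.card) hval
      simp only [Perm.card_support_conj, hs₁, Perm.support_one, Finset.card_empty] at this
      omega
    have hsup : ((((u₂ : alternatingGroup (Fin 6)) : Perm (Fin 6))) ^ i).support.card = 6 := by
      have hcase : (((u₂ : alternatingGroup (Fin 6)) : Perm (Fin 6))) ^ i = ((u₂ : alternatingGroup (Fin 6)) : Perm (Fin 6)) ∨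
          (((u₂ : alternatingGroup (Fin 6)) : Perm (Fin 6))) ^ i = (((u₂ : alternatingGroup (Fin 6)) : Perm (Fin 6)))⁻¹ := by
        obtain ⟨j, hj⟩ : ∃ j, i = 3 * j + 1 ∨ i = 3 * j - 1 := ⟨(i + 1) / 3, by omega⟩
        rcases hj with rfl | rfl
        · left; rw [zpow_add, zpow_mul, zpow_ofNat, h3, one_zpow, one_mul, zpow_one]
        · right; rw [zpow_sub, zpow_mul, zpow_ofNat, h3, one_zpow, zpow_one, one_mul]
      rcases hcase with h | h <;> rw [h]
      · exact hs₂
      · rw [Perm.support_inv]; exact hs₂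
    have := congrArg (fun f : Perm (Fin 6) => f.support.card) hval
    simp only [Perm.card_support_conj, hs₁, hsup] at this
    omega

end CfsgLib.AltDerange
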